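import Cfsg.Agent.H383.RG.Count
import Cfsg.Agent.H94.RG.UStmts

/-!
# S5715, unbounded rank: irreducible elements of the same order are conjugate up to a power (helper383)

`rg_U2 : U2`.
-/

set_option autoImplicit false
set_option linter.unusedSectionVars false

namespace Cfsg.Agent.H383.RG

open Module Polynomial
open Cfsg.Agent.H50.RG (IrrM)
open scoped Matrix

/-- an irreducible linear map is a multiplication of the field with `q ^ d` elements -/
theorem exists_model {F K X : Type} [Field F] [Finite F] [Field K] [Finite K] [Algebra F K] [AddCommGroup X]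
    [Module F X] [Module.Finite F X] [Nontrivial X] (hK : finrank F K = finrank F X) (z : X ≃ₗ[F] X)
    (hz : ∀ W : Submodule F X, (∀ v ∈ W, z v ∈ W) → W = ⊥ ∨ W = ⊤) :
    ∃ (e : K ≃ₗ[F] X) (u : K), ∀ a, e (u * a) = z (e a) := by
  have hfd : FiniteDimensional F K := Module.Finite.of_finite
  set d := finrank F X with hd
  have hd0 : 0 < d := finrank_pos
  let b : Basis (Fin d) F X := Module.finBasis F X
  let ze : (X →ₗ[F] X)ˣ := ⟨z, z.symm, by ext v; exact z.apply_symm_apply v, by ext v; exact z.symm_apply_apply v⟩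
  let g : GL (Fin d) F := Units.map ((LinearMap.toMatrixAlgEquiv b) : (X →ₗ[F] X) →* Matrix (Fin d) (Fin d) F) ze
  have hg : ∀ x, (g : Matrix (Fin d) (Fin d) F) *ᵥ (b.equivFun x) = b.equivFun (z x) := by
    intro x
    exact LinearMap.toMatrix_mulVec_repr b b (z : X →ₗ[F] X) x
  have hirr : IrrM F g := by
    refine ⟨hd0, fun Y hY => ?_⟩
    rcases hz (Y.comap (b.equivFun : X →ₗ[F] (Fin d → F))) (by
      intro v hv
      rw [Submodule.mem_comap] at hv ⊢
      have h1 := hY _ hv
      have h2 : (g : Matrix (Fin d) (Fin d) F) *ᵥ (b.equivFun v) ∈ Y := h1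
      rw [hg] at h2
      exact h2) with h1 | h1
    · left
      rw [eq_bot_iff]
      intro y hy
      have h2 : b.equivFun.symm y ∈ Y.comap (b.equivFun : X →ₗ[F] (Fin d → F)) := by
        rw [Submodule.mem_comap]
        show b.equivFun (b.equivFun.symm y) ∈ Y
        rwa [LinearEquiv.apply_symm_apply]
      rw [h1, Submodule.mem_bot] at h2
      rw [Submodule.mem_bot]
      exact (LinearEquiv.map_eq_zero_iff _).1 h2
    · right
      rw [eq_top_iff]
      intro y _
      have h2 : b.equivFun.symm y ∈ Y.comap (b.equivFun : X →ₗ[F] (Fin d → F)) := by rw [h1]; trivial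
      rw [Submodule.mem_comap] at h2
      have h3 : b.equivFun (b.equivFun.symm y) ∈ Y := h2
      rwa [LinearEquiv.apply_symm_apply] at h3
  obtain ⟨u, hu⟩ := exists_root hK hirr
  let pb := PowerBasis.ofAdjoinEqTop (IsIntegral.of_finite F u) (adjoin_of_root hK hirr hu)
  let φ : K →ₐ[F] Matrix (Fin d) (Fin d) F := pb.lift (g : Matrix (Fin d) (Fin d) F) (by
    show aeval _ (minpoly F u) = 0
    rw [minpoly_of_root hirr hu, minpoly.aeval])
  have hφ : φ u = (g : Matrix (Fin d) (Fin d) F) := pb.lift_gen _ _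
  have hne : Nonempty (Fin d) := ⟨⟨0, hd0⟩⟩
  let v : Fin d → F := fun _ => 1
  have hv : v ≠ 0 := by
    intro h0
    have := congrFun h0 (Classical.arbitrary (Fin d))
    simp [v] at this
  let T : K →ₗ[F] (Fin d → F) :=
    { toFun := fun k => φ k *ᵥ v
      map_add' := fun x y => by rw [map_add, Matrix.add_mulVec]
      map_smul' := fun c x => by rw [map_smul, Matrix.smul_mulVec, RingHom.id_apply] }
  have hTinj : Function.Injective T := by
    rw [injective_iff_map_eq_zero]
    intro k hk
    by_contra hk0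
    apply hv
    have h1 : φ k⁻¹ *ᵥ (φ k *ᵥ v) = v := by
      rw [Matrix.mulVec_mulVec, ← map_mul, inv_mul_cancel₀ hk0, map_one, Matrix.one_mulVec]
    have h2 : φ k *ᵥ v = 0 := hk
    rw [← h1, h2, Matrix.mulVec_zero]
  let Te : K ≃ₗ[F] (Fin d → F) := LinearEquiv.ofInjectiveOfFinrankEq T hTinj (by
    rw [hK, Module.finrank_fintype_fun_eq_card, Fintype.card_fin])
  refine ⟨Te.trans b.equivFun.symm, u, fun a => ?_⟩
  apply b.equivFun.injective
  rw [← hg]
  show b.equivFun (b.equivFun.symm (Te (u * a))) = _ *ᵥ (b.equivFun (b.equivFun.symm (Te a)))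
  rw [LinearEquiv.apply_symm_apply, LinearEquiv.apply_symm_apply]
  show φ (u * a) *ᵥ v = _ *ᵥ (φ a *ᵥ v)
  rw [map_mul, hφ, Matrix.mulVec_mulVec]

theorem pow_model {F K X : Type} [Field F] [Field K] [Algebra F K] [AddCommGroup X]
    [Module F X] {z : X ≃ₗ[F] X} {e : K ≃ₗ[F] X} {u : K} (h : ∀ a, e (u * a) = z (e a)) (n : ℕ) (a : K) :
    e (u ^ n * a) = (z ^ n) (e a) := by
  induction n generalizing a with
  | zero => rw [pow_zero, pow_zero, one_mul]; rfl
  | succ n ih =>
    rw [pow_succ, mul_assoc, ih, h, pow_succ]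
    rfl

theorem orderOf_model {F K X : Type} [Field F] [Field K] [Algebra F K] [AddCommGroup X]
    [Module F X] {z : X ≃ₗ[F] X} {e : K ≃ₗ[F] X} {u : K} (h : ∀ a, e (u * a) = z (e a)) : orderOf u = orderOf z := by
  apply Nat.dvd_antisymm
  · apply orderOf_dvd_of_pow_eq_one
    apply mul_right_cancel₀ (one_ne_zero (α := K))
    rw [one_mul]
    apply e.injective
    rw [pow_model h, pow_orderOf_eq_one]
    rfl
  · apply orderOf_dvd_of_pow_eq_one
    apply LinearEquiv.ext
    intro x
    obtain ⟨a, rfl⟩ := e.surjective x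
    rw [← pow_model h, pow_orderOf_eq_one, one_mul]
    rfl

open Cfsg.Agent.H847.Bs in
/-- **U2** : irreducible elements of the same order are conjugate up to a power -/
theorem rg_U2 : Cfsg.Agent.H94.RG.U.U2 := by
  intro F X Y _ _ _ _ _ _ _ _ z w hdim hz hw ho
  rcases Nat.eq_zero_or_pos (finrank F X) with h0 | hpos
  · exact ⟨LinearEquiv.ofFinrankEq X Y hdim, 0, fun x => by
      have hs : Subsingleton Y := finrank_zero_iff.1 (hdim ▸ h0)
      exact Subsingleton.elim _ _⟩
  have hX : Nontrivial X := Module.nontrivial_of_finrank_pos (R := F) hpos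
  have hY : Nontrivial Y := Module.nontrivial_of_finrank_pos (R := F) (hdim ▸ hpos)
  obtain ⟨K, _, _, _, hrk⟩ : ∃ (K : Type) (_ : Field K) (_ : Finite K) (_ : Algebra F K), finrank F K = finrank F X := by
    obtain ⟨p, hp⟩ := CharP.exists F
    have hpr : Fact p.Prime := ⟨CharP.char_is_prime F p⟩
    have hd0 : NeZero (finrank F X) := ⟨by omega⟩
    exact ⟨FiniteField.Extension F p (finrank F X), inferInstance, inferInstance, inferInstance,
      FiniteField.finrank_extension F p (finrank F X)⟩
  obtain ⟨e, u, he⟩ := exists_model hrk z fun W hW => hz.min W le_top hW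
  obtain ⟨e', v, he'⟩ := exists_model (hrk.trans hdim) w fun W hW => hw.min W le_top hW
  have h1 := orderOf_model he
  have h2 := orderOf_model he'
  have hpos' : 0 < orderOf v := by
    rw [h2, ← ho]
    have : Finite (X ≃ₗ[F] X) := by
      have : Finite X := Module.finite_of_finite F
      exact Finite.of_injective (fun e : X ≃ₗ[F] X => (e : X → X)) DFunLike.coe_injective
    exact orderOf_pos z
  have hne : NeZero (orderOf v) := ⟨hpos'.ne'⟩
  obtain ⟨k, -, hk⟩ := (IsPrimitiveRoot.orderOf v).eq_pow_of_pow_eq_one (ξ := u) (by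
    rw [h2, ← ho, ← h1]
    exact pow_orderOf_eq_one u)
  refine ⟨e.symm.trans e', k, fun x => ?_⟩
  obtain ⟨a, rfl⟩ := e.surjective x
  rw [← he]
  show e' (e.symm (e (u * a))) = (w ^ k) (e' (e.symm (e a)))
  rw [LinearEquiv.symm_apply_apply, LinearEquiv.symm_apply_apply, ← pow_model he', hk]

end Cfsg.Agent.H383.RG
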