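import Cfsg.Agent.H50.RG.LStmts

/-!
# S5714, layer L: irreducible matrices and generators of the field with `q ^ d` elements (helper383)

`rg_L25 : L25`, `rg_L02 : L02`.
-/

set_option autoImplicit false
set_option linter.unusedSectionVars false

namespace Cfsg.Agent.H383.RG

open Module Polynomial
open Cfsg.Agent.H50.RG (IrrM L25 L02)
open scoped Matrix

section

variable {F : Type} [Field F] [Finite F] {d : ℕ}

/-- the kernel of a polynomial in an irreducible matrix -/
theorem ker_cases {g : GL (Fin d) F} (h : IrrM F g) (p : F[X]) :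
    aeval (g : Matrix (Fin d) (Fin d) F) p = 0 ∨
      ∀ v, (aeval (g : Matrix (Fin d) (Fin d) F) p) *ᵥ v = 0 → v = 0 := by
  have hcomm : (g : Matrix (Fin d) (Fin d) F) * aeval (g : Matrix (Fin d) (Fin d) F) p =
      aeval (g : Matrix (Fin d) (Fin d) F) p * (g : Matrix (Fin d) (Fin d) F) := by
    have h1 : aeval (g : Matrix (Fin d) (Fin d) F) ((X : F[X]) * p) = aeval (g : Matrix (Fin d) (Fin d) F) (p * X) := by
      rw [mul_comm]
    rwa [map_mul, map_mul, aeval_X] at h1
  rcases h.2 (LinearMap.ker (Matrix.toLin' (aeval (g : Matrix (Fin d) (Fin d) F) p))) (by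
    intro v hv
    rw [LinearMap.mem_ker, Matrix.toLin'_apply] at hv ⊢
    rw [Matrix.mulVec_mulVec, ← hcomm, ← Matrix.mulVec_mulVec, hv, Matrix.mulVec_zero]) with h1 | h1
  · right
    intro v hv
    have h2 : v ∈ LinearMap.ker (Matrix.toLin' (aeval (g : Matrix (Fin d) (Fin d) F) p)) := by
      rw [LinearMap.mem_ker, Matrix.toLin'_apply]
      exact hv
    rw [h1] at h2
    exact (Submodule.mem_bot F).1 h2
  · left
    apply Matrix.toLin'.injective
    rw [map_zero]
    exact LinearMap.ker_eq_top.1 h1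

theorem minpoly_irreducible {g : GL (Fin d) F} (h : IrrM F g) :
    Irreducible (minpoly F (g : Matrix (Fin d) (Fin d) F)) := by
  have hd : Nonempty (Fin d) := ⟨⟨0, h.1⟩⟩
  have hint : IsIntegral F (g : Matrix (Fin d) (Fin d) F) := IsIntegral.of_finite F _
  have hmon := minpoly.monic hint
  have hne1 : minpoly F (g : Matrix (Fin d) (Fin d) F) ≠ 1 := minpoly.ne_one F _
  rw [hmon.irreducible_iff_natDegree' ]
  refine ⟨hne1, fun a b ha hb hab hm => ?_⟩
  rw [Finset.mem_Ioc] at hm
  have hdeg : a.natDegree + b.natDegree = (minpoly F (g : Matrix (Fin d) (Fin d) F)).natDegree := by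
    rw [← hab, ha.natDegree_mul hb]
  have key : ∀ c : F[X], c.Monic → c.natDegree < (minpoly F (g : Matrix (Fin d) (Fin d) F)).natDegree →
      aeval (g : Matrix (Fin d) (Fin d) F) c ≠ 0 := by
    intro c hc hlt h0
    have h1 := minpoly.min F (g : Matrix (Fin d) (Fin d) F) hc h0
    have h2 := Polynomial.natDegree_le_natDegree h1
    omega
  have h1 := (ker_cases h a).resolve_left (key a ha (by omega))
  have h2 := key b hb (by omega)
  apply h2
  apply Matrix.toLin'.injective
  apply LinearMap.ext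
  intro v
  rw [Matrix.toLin'_apply, map_zero, LinearMap.zero_apply]
  apply h1
  rw [Matrix.mulVec_mulVec, ← map_mul, hab, minpoly.aeval, Matrix.zero_mulVec]

theorem natDegree_minpoly {g : GL (Fin d) F} (h : IrrM F g) :
    (minpoly F (g : Matrix (Fin d) (Fin d) F)).natDegree = d := by
  have hd : Nonempty (Fin d) := ⟨⟨0, h.1⟩⟩
  set A : Matrix (Fin d) (Fin d) F := (g : Matrix (Fin d) (Fin d) F) with hA
  have hint : IsIntegral F A := IsIntegral.of_finite F _
  apply le_antisymm
  · have h1 := Polynomial.natDegree_le_of_dvd (Matrix.minpoly_dvd_charpoly A) (Matrix.charpoly_monic A).ne_zero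
    rwa [Matrix.charpoly_natDegree_eq_dim, Fintype.card_fin] at h1
  · have hf0 : minpoly F A ≠ 0 := minpoly.ne_zero hint
    let pb := AdjoinRoot.powerBasis hf0
    have hg : pb.gen = AdjoinRoot.root (minpoly F A) := AdjoinRoot.powerBasis_gen hf0
    let φ : AdjoinRoot (minpoly F A) →ₐ[F] Matrix (Fin d) (Fin d) F := pb.lift A (by
      rw [hg, AdjoinRoot.minpoly_root hf0, (minpoly.monic hint).leadingCoeff, inv_one, map_one, mul_one,
        minpoly.aeval])
    have hφ : φ (AdjoinRoot.root (minpoly F A)) = A := by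
      rw [← hg]
      exact pb.lift_gen _ _
    let v : Fin d → F := fun _ => 1
    have hv : v ≠ 0 := by
      intro h0
      have := congrFun h0 (Classical.arbitrary (Fin d))
      simp [v] at this
    let T : AdjoinRoot (minpoly F A) →ₗ[F] (Fin d → F) :=
      { toFun := fun k => φ k *ᵥ v
        map_add' := fun x y => by rw [map_add, Matrix.add_mulVec]
        map_smul' := fun c x => by rw [map_smul, Matrix.smul_mulVec, RingHom.id_apply] }
    have hT : LinearMap.range T = ⊤ := by
      refine (h.2 _ ?_).resolve_left ?_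
      · rintro _ ⟨k, rfl⟩
        refine ⟨AdjoinRoot.root (minpoly F A) * k, ?_⟩
        show φ (_ * k) *ᵥ v = A *ᵥ (φ k *ᵥ v)
        rw [map_mul, hφ, Matrix.mulVec_mulVec]
      · intro h0
        have h1 : T 1 ∈ LinearMap.range T := ⟨1, rfl⟩
        rw [h0, Submodule.mem_bot] at h1
        have h2 : φ 1 *ᵥ v = 0 := h1
        rw [map_one, Matrix.one_mulVec] at h2
        exact hv h2
    have := pb.finite
    have h1 := LinearMap.finrank_range_le T
    rw [hT, finrank_top, Module.finrank_fintype_fun_eq_card, Fintype.card_fin, pb.finrank,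
      AdjoinRoot.powerBasis_dim] at h1
    exact h1

/-- the conjugation form of an embedding -/
theorem orderOf_hom {K : Type} [Field K] [Algebra F K] (hd : 1 ≤ d) (φ : K →ₐ[F] Matrix (Fin d) (Fin d) F)
    {g : GL (Fin d) F} {u : Kˣ} (h : φ u = (g : Matrix (Fin d) (Fin d) F)) : orderOf g = orderOf u := by
  have hne : Nonempty (Fin d) := ⟨⟨0, hd⟩⟩
  have hinj : Function.Injective φ := φ.toRingHom.injective
  rw [← orderOf_units, ← h, ← orderOf_units]
  exact orderOf_injective φ.toMonoidHom hinj _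

variable {K : Type} [Field K] [Finite K] [Algebra F K]

theorem exists_root (hK : finrank F K = d) {g : GL (Fin d) F} (h : IrrM F g) :
    ∃ u : K, aeval u (minpoly F (g : Matrix (Fin d) (Fin d) F)) = 0 := by
  have hd : Nonempty (Fin d) := ⟨⟨0, h.1⟩⟩
  set f := minpoly F (g : Matrix (Fin d) (Fin d) F) with hf
  have hirr := minpoly_irreducible h
  have hfact : Fact (Irreducible f) := ⟨hirr⟩
  let pb := AdjoinRoot.powerBasis hirr.ne_zero
  have hfin : Module.Finite F (AdjoinRoot f) := pb.finite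
  have hfin' : Finite (AdjoinRoot f) := Module.finite_of_finite F
  have hrk : finrank F (AdjoinRoot f) = d := by
    rw [pb.finrank, AdjoinRoot.powerBasis_dim, natDegree_minpoly h]
  obtain ⟨ψ⟩ := FiniteField.nonempty_algHom_of_finrank_dvd (F := F) (K := AdjoinRoot f) (L := K) (by rw [hrk, hK])
  refine ⟨ψ (AdjoinRoot.root f), ?_⟩
  rw [Polynomial.aeval_algHom_apply, AdjoinRoot.aeval_eq, AdjoinRoot.mk_self, map_zero]

theorem minpoly_of_root {g : GL (Fin d) F} (h : IrrM F g) {u : K}
    (hu : aeval u (minpoly F (g : Matrix (Fin d) (Fin d) F)) = 0) :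
    minpoly F u = minpoly F (g : Matrix (Fin d) (Fin d) F) :=
  (minpoly.eq_of_irreducible_of_monic (minpoly_irreducible h) hu (minpoly.monic (IsIntegral.of_finite F _))).symm

theorem adjoin_of_root (hK : finrank F K = d) {g : GL (Fin d) F} (h : IrrM F g) {u : K}
    (hu : aeval u (minpoly F (g : Matrix (Fin d) (Fin d) F)) = 0) : Algebra.adjoin F {u} = ⊤ := by
  have hfd : FiniteDimensional F K := Module.Finite.of_finite
  have h1 : IntermediateField.adjoin F {u} = ⊤ := by
    rw [Field.primitive_element_iff_minpoly_natDegree_eq, minpoly_of_root h hu, natDegree_minpoly h, hK]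
  rw [← IntermediateField.adjoin_simple_toSubalgebra_of_isAlgebraic (IsIntegral.of_finite F u).isAlgebraic, h1,
    IntermediateField.top_toSubalgebra]

/-- the fibre over an irreducible matrix -/
theorem card_fibre (hK : finrank F K = d) {g : GL (Fin d) F} (h : IrrM F g) :
    Nat.card {z : (K →ₐ[F] Matrix (Fin d) (Fin d) F) × Kˣ //
      Algebra.adjoin F {(z.2 : K)} = ⊤ ∧ z.1 (z.2 : K) = (g : Matrix (Fin d) (Fin d) F)} = d := by
  have hne : Nonempty (Fin d) := ⟨⟨0, h.1⟩⟩
  have hfd : FiniteDimensional F K := Module.Finite.of_finite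
  have := Fintype.ofFinite K
  set f := minpoly F (g : Matrix (Fin d) (Fin d) F) with hf
  have hirr := minpoly_irreducible h
  have hsep : f.Separable := PerfectField.separable_of_irreducible hirr
  obtain ⟨u₀, hu₀⟩ := exists_root (K := K) hK h
  have hsplit : (f.map (algebraMap F K)).Splits := by
    rw [hf, ← minpoly_of_root h hu₀]
    exact Normal.splits inferInstance u₀
  have hcard := card_rootSet_eq_natDegree (K := K) hsep hsplit
  rw [natDegree_minpoly h] at hcard
  have hmem : ∀ u : K, u ∈ f.rootSet K ↔ aeval u f = 0 := fun u => by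
    rw [mem_rootSet]
    exact and_iff_right hirr.ne_zero
  have haev : ∀ (φ : K →ₐ[F] Matrix (Fin d) (Fin d) F) (u : K), φ u = (g : Matrix (Fin d) (Fin d) F) →
      aeval u f = 0 := by
    intro φ u hu
    apply φ.toRingHom.injective
    rw [map_zero]
    show φ (aeval u f) = 0
    rw [← Polynomial.aeval_algHom_apply, hu, minpoly.aeval]
  refine Eq.trans ?_ hcard
  rw [← Nat.card_eq_fintype_card]
  apply Nat.card_congr
  refine Equiv.ofBijective (fun z => ⟨(z.1.2 : K), (hmem _).2 (haev z.1.1 _ z.2.2)⟩) ⟨?_, ?_⟩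
  · rintro ⟨⟨φ, u⟩, h1, h2⟩ ⟨⟨φ', u'⟩, h1', h2'⟩ heq
    have h3 : (u : K) = u' := congrArg Subtype.val heq
    have h4 : u = u' := Units.ext h3
    subst h4
    have h5 : φ = φ' := by
      apply AlgHom.ext_of_adjoin_eq_top h1
      intro x hx
      rw [Set.mem_singleton_iff.1 hx]
      exact h2.trans h2'.symm
    subst h5
    rfl
  · rintro ⟨u, hu⟩
    rw [hmem] at hu
    have hu0 : u ≠ 0 := by
      rintro rfl
      have h1 := minpoly_of_root h hu
      rw [minpoly.zero] at h1
      have h2 := minpoly.aeval F (g : Matrix (Fin d) (Fin d) F)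
      rw [← h1, aeval_X] at h2
      exact g.ne_zero h2
    have had := adjoin_of_root hK h hu
    let pb := PowerBasis.ofAdjoinEqTop (IsIntegral.of_finite F u) had
    have hg : pb.gen = u := rfl
    let φ : K →ₐ[F] Matrix (Fin d) (Fin d) F := pb.lift (g : Matrix (Fin d) (Fin d) F) (by
      rw [hg, minpoly_of_root h hu, minpoly.aeval])
    have hφ : φ u = (g : Matrix (Fin d) (Fin d) F) := pb.lift_gen _ _
    exact ⟨⟨⟨φ, Units.mk0 u hu0⟩, had, hφ⟩, rfl⟩

/-- the matrices of the multiplications -/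
theorem exists_frame (hK : finrank F K = d) :
    ∃ (e : K ≃ₗ[F] (Fin d → F)) (L : K →ₐ[F] Matrix (Fin d) (Fin d) F), ∀ x y, L x *ᵥ e y = e (x * y) := by
  have hfd : FiniteDimensional F K := Module.Finite.of_finite
  let b : Basis (Fin d) F K := Module.finBasisOfFinrankEq F K hK
  exact ⟨b.equivFun, Algebra.leftMulMatrix b, fun x y => Algebra.leftMulMatrix_mulVec_repr b x y⟩

/-- `GL_d` and the embeddings of `K` -/
theorem card_GL (hd : 1 ≤ d) (hK : finrank F K = d) :
    Nat.card (GL (Fin d) F) = Nat.card (K →ₐ[F] Matrix (Fin d) (Fin d) F) * (Nat.card F ^ d - 1) := by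
  classical
  have hne : Nonempty (Fin d) := ⟨⟨0, hd⟩⟩
  obtain ⟨e, L, hL⟩ := exists_frame (F := F) (K := K) hK
  have hv : Nat.card {v : Fin d → F // v ≠ 0} = Nat.card F ^ d - 1 := by
    have := Fintype.ofFinite F
    rw [Nat.card_eq_fintype_card, Fintype.card_subtype_compl, Fintype.card_subtype_eq, Fintype.card_fun,
      Fintype.card_fin, Nat.card_eq_fintype_card]
  rw [← hv, ← Nat.card_prod]
  have he1 : e 1 ≠ 0 := by
    rw [Ne, LinearEquiv.map_eq_zero_iff]
    exact one_ne_zero
  let conj (h : GL (Fin d) F) : K →ₐ[F] Matrix (Fin d) (Fin d) F :=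
    { toFun := fun k => (h : Matrix (Fin d) (Fin d) F) * L k * ((h⁻¹ : GL (Fin d) F) : Matrix (Fin d) (Fin d) F)
      map_one' := by rw [map_one, mul_one, ← Units.val_mul, mul_inv_cancel, Units.val_one]
      map_mul' := fun x y => by
        rw [map_mul]
        have h1 : ((h⁻¹ : GL (Fin d) F) : Matrix (Fin d) (Fin d) F) * (h : Matrix (Fin d) (Fin d) F) = 1 := by
          rw [← Units.val_mul, inv_mul_cancel, Units.val_one]
        calc _ = (h : Matrix (Fin d) (Fin d) F) * L x * 1 * L y * ((h⁻¹ : GL (Fin d) F) : Matrix _ _ F) := by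
              rw [mul_one, mul_assoc (h : Matrix (Fin d) (Fin d) F) (L x) (L y)]
          _ = _ := by rw [← h1]; simp only [mul_assoc]
      map_zero' := by rw [map_zero, mul_zero, zero_mul]
      map_add' := fun x y => by rw [map_add, mul_add, add_mul]
      commutes' := fun c => by
        rw [AlgHom.commutes, ← Algebra.commutes, mul_assoc, ← Units.val_mul, mul_inv_cancel, Units.val_one, mul_one] }
  have hconj : ∀ h k, conj h k * (h : Matrix (Fin d) (Fin d) F) = (h : Matrix (Fin d) (Fin d) F) * L k := by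
    intro h k
    show (h : Matrix (Fin d) (Fin d) F) * L k * ((h⁻¹ : GL (Fin d) F) : Matrix (Fin d) (Fin d) F) *
      (h : Matrix (Fin d) (Fin d) F) = _
    rw [mul_assoc, ← Units.val_mul, inv_mul_cancel, Units.val_one, mul_one]
  have hval : ∀ (h : GL (Fin d) F) (k : K), (h : Matrix (Fin d) (Fin d) F) *ᵥ e k =
      conj h k *ᵥ ((h : Matrix (Fin d) (Fin d) F) *ᵥ e 1) := by
    intro h k
    rw [Matrix.mulVec_mulVec, hconj, ← Matrix.mulVec_mulVec, hL, mul_one]
  apply Nat.card_congr
  refine Equiv.ofBijective (fun h => (conj h, ⟨(h : Matrix (Fin d) (Fin d) F) *ᵥ e 1, ?_⟩)) ⟨?_, ?_⟩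
  · intro h0
    apply he1
    have h1 := congrArg (fun v => ((h⁻¹ : GL (Fin d) F) : Matrix (Fin d) (Fin d) F) *ᵥ v) h0
    simp only [Matrix.mulVec_mulVec, ← Units.val_mul, inv_mul_cancel, Units.val_one, Matrix.one_mulVec,
      Matrix.mulVec_zero] at h1
    exact h1
  · intro h h' heq
    have h1 : conj h = conj h' := congrArg Prod.fst heq
    have h2 : (h : Matrix (Fin d) (Fin d) F) *ᵥ e 1 = (h' : Matrix (Fin d) (Fin d) F) *ᵥ e 1 :=
      congrArg (fun z => (z.2 : Fin d → F)) heq
    apply Units.ext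
    apply Matrix.toLin'.injective
    apply LinearMap.ext
    intro v
    obtain ⟨k, rfl⟩ := e.surjective v
    rw [Matrix.toLin'_apply, Matrix.toLin'_apply, hval h, hval h', h1, h2]
  · rintro ⟨φ, ⟨v, hv0⟩⟩
    let T : (Fin d → F) →ₗ[F] (Fin d → F) :=
      { toFun := fun w => φ (e.symm w) *ᵥ v
        map_add' := fun x y => by rw [map_add, map_add, Matrix.add_mulVec]
        map_smul' := fun c x => by rw [map_smul, map_smul, Matrix.smul_mulVec, RingHom.id_apply] }
    have hinj : Function.Injective T := by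
      rw [← LinearMap.ker_eq_bot, LinearMap.ker_eq_bot']
      intro w hw
      by_contra hw0
      have hk : e.symm w ≠ 0 := by
        rw [Ne, LinearEquiv.map_eq_zero_iff]
        exact hw0
      apply hv0
      have h1 : φ (e.symm w) *ᵥ v = 0 := hw
      have h2 := congrArg (fun u => φ (e.symm w)⁻¹ *ᵥ u) h1
      simp only [Matrix.mulVec_mulVec, ← map_mul, inv_mul_cancel₀ hk, map_one, Matrix.one_mulVec,
        Matrix.mulVec_zero] at h2
      exact h2
    have hunit : IsUnit (LinearMap.toMatrix' T) := by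
      have h1 : IsUnit T := (LinearMap.isUnit_iff_ker_eq_bot T).2 (LinearMap.ker_eq_bot.2 hinj)
      exact h1.map (LinearMap.toMatrixAlgEquiv' : ((Fin d → F) →ₗ[F] (Fin d → F)) ≃ₐ[F] Matrix (Fin d) (Fin d) F)
    obtain ⟨h, hh⟩ := hunit
    have hT : ∀ k, (h : Matrix (Fin d) (Fin d) F) *ᵥ e k = φ k *ᵥ v := by
      intro k
      rw [hh, LinearMap.toMatrix'_mulVec]
      show φ (e.symm (e k)) *ᵥ v = _
      rw [e.symm_apply_apply]
    have hv1 : (h : Matrix (Fin d) (Fin d) F) *ᵥ e 1 = v := by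
      rw [hT, map_one, Matrix.one_mulVec]
    refine ⟨h, Prod.ext ?_ (Subtype.ext hv1)⟩
    apply AlgHom.ext
    intro k
    have h1 : conj h k * (h : Matrix (Fin d) (Fin d) F) = φ k * (h : Matrix (Fin d) (Fin d) F) := by
      apply Matrix.toLin'.injective
      apply LinearMap.ext
      intro w
      obtain ⟨x, rfl⟩ := e.surjective w
      rw [Matrix.toLin'_apply, Matrix.toLin'_apply, hconj, ← Matrix.mulVec_mulVec, hL, hT, ← Matrix.mulVec_mulVec,
        hT, Matrix.mulVec_mulVec, map_mul]
    have h2 := congrArg (fun z => z * ((h⁻¹ : GL (Fin d) F) : Matrix (Fin d) (Fin d) F)) h1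
    simp only [mul_assoc, ← Units.val_mul, mul_inv_cancel, Units.val_one, mul_one] at h2
    exact h2

/-- the pairs -/
theorem card_pairs (hK : finrank F K = d) (hd : 1 ≤ d) (P : ℕ → Prop) :
    Nat.card (K →ₐ[F] Matrix (Fin d) (Fin d) F) *
      Nat.card {u : Kˣ // Algebra.adjoin F {(u : K)} = ⊤ ∧ P (orderOf u)} =
    Nat.card {g : GL (Fin d) F // IrrM F g ∧ P (orderOf g)} * d := by
  classical
  have hne : Nonempty (Fin d) := ⟨⟨0, hd⟩⟩
  have hfd : FiniteDimensional F K := Module.Finite.of_finite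
  have hfin : Finite (K →ₐ[F] Matrix (Fin d) (Fin d) F) :=
    Finite.of_injective (fun φ => (φ : K → Matrix (Fin d) (Fin d) F)) DFunLike.coe_injective
  rw [← Nat.card_prod]
  -- the map to the irreducible matrices
  have hirr : ∀ (φ : K →ₐ[F] Matrix (Fin d) (Fin d) F) (u : Kˣ), Algebra.adjoin F {(u : K)} = ⊤ →
      ∀ g : GL (Fin d) F, φ u = (g : Matrix (Fin d) (Fin d) F) → IrrM F g := by
    intro φ u hu g hg
    refine ⟨hd, fun Y hY => ?_⟩
    by_cases hY0 : Y = ⊥
    · exact Or.inl hY0
    right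
    obtain ⟨v, hvY, hv0⟩ := (Submodule.ne_bot_iff Y).1 hY0
    have hall : ∀ k : K, ∀ w ∈ Y, φ k *ᵥ w ∈ Y := by
      intro k
      have hk : k ∈ Algebra.adjoin F {(u : K)} := by rw [hu]; trivial
      induction hk using Algebra.adjoin_induction with
      | mem x hx =>
        intro w hw
        rw [Set.mem_singleton_iff.1 hx, hg]
        exact hY w hw
      | algebraMap r =>
        intro w hw
        rw [AlgHom.commutes, Algebra.algebraMap_eq_smul_one, Matrix.smul_mulVec, Matrix.one_mulVec]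
        exact Y.smul_mem r hw
      | add x y _ _ hx hy =>
        intro w hw
        rw [map_add, Matrix.add_mulVec]
        exact Y.add_mem (hx w hw) (hy w hw)
      | mul x y _ _ hx hy =>
        intro w hw
        rw [map_mul, ← Matrix.mulVec_mulVec]
        exact hx _ (hy w hw)
    let T : K →ₗ[F] Y :=
      { toFun := fun k => ⟨φ k *ᵥ v, hall k v hvY⟩
        map_add' := fun x y => Subtype.ext (by
          show φ (x + y) *ᵥ v = φ x *ᵥ v + φ y *ᵥ v
          rw [map_add, Matrix.add_mulVec])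
        map_smul' := fun c x => Subtype.ext (by
          show φ (c • x) *ᵥ v = c • (φ x *ᵥ v)
          rw [map_smul, Matrix.smul_mulVec]) }
    have hinj : Function.Injective T := by
      rw [← LinearMap.ker_eq_bot, LinearMap.ker_eq_bot']
      intro k hk
      by_contra hk0
      apply hv0
      have h1 : φ k *ᵥ v = 0 := congrArg Subtype.val hk
      have h2 := congrArg (fun u => φ k⁻¹ *ᵥ u) h1
      simp only [Matrix.mulVec_mulVec, ← map_mul, inv_mul_cancel₀ hk0, map_one, Matrix.one_mulVec,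
        Matrix.mulVec_zero] at h2
      exact h2
    have h1 := LinearMap.finrank_le_finrank_of_injective hinj
    rw [hK] at h1
    apply Submodule.eq_top_of_finrank_eq
    have h2 := Submodule.finrank_le Y
    rw [Module.finrank_fintype_fun_eq_card, Fintype.card_fin] at h2 ⊢
    omega
  let gl (φ : K →ₐ[F] Matrix (Fin d) (Fin d) F) (u : Kˣ) : GL (Fin d) F := Units.map φ.toMonoidHom u
  have hgl : ∀ φ u, ((gl φ u : GL (Fin d) F) : Matrix (Fin d) (Fin d) F) = φ u := fun φ u => rfl
  let Ψ : (K →ₐ[F] Matrix (Fin d) (Fin d) F) × {u : Kˣ // Algebra.adjoin F {(u : K)} = ⊤ ∧ P (orderOf u)} →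
      {g : GL (Fin d) F // IrrM F g ∧ P (orderOf g)} := fun z =>
    ⟨gl z.1 z.2.1, hirr z.1 z.2.1 z.2.2.1 _ (hgl _ _).symm, by
      rw [orderOf_hom hd z.1 (hgl z.1 z.2.1).symm]
      exact z.2.2.2⟩
  have hfib : ∀ g : {g : GL (Fin d) F // IrrM F g ∧ P (orderOf g)}, Nat.card {z // Ψ z = g} = d := by
    rintro ⟨g, hg, hP⟩
    refine Eq.trans (Nat.card_congr ?_) (card_fibre (K := K) hK hg)
    refine Equiv.ofBijective (fun z => ⟨(z.1.1, z.1.2.1), z.1.2.2.1, ?_⟩) ⟨?_, ?_⟩
    · have h1 := congrArg (fun x => ((x.1 : GL (Fin d) F) : Matrix (Fin d) (Fin d) F)) z.2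
      exact h1
    · rintro ⟨⟨φ, ⟨u, h1⟩⟩, h2⟩ ⟨⟨φ', ⟨u', h1'⟩⟩, h2'⟩ heq
      have h3 : (φ, u) = (φ', u') := congrArg Subtype.val heq
      obtain ⟨rfl, rfl⟩ := Prod.mk.inj h3
      rfl
    · rintro ⟨⟨φ, u⟩, h1, h2⟩
      have h3 : P (orderOf u) := by
        rw [← orderOf_hom hd φ h2]
        exact hP
      exact ⟨⟨(φ, ⟨u, h1, h3⟩), Subtype.ext (Units.ext h2)⟩, rfl⟩
  rw [Nat.card_congr (Equiv.sigmaFiberEquiv Ψ).symm]
  have hf1 : Finite {g : GL (Fin d) F // IrrM F g ∧ P (orderOf g)} := inferInstance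
  have := Fintype.ofFinite {g : GL (Fin d) F // IrrM F g ∧ P (orderOf g)}
  rw [Nat.card_sigma, Finset.sum_congr rfl fun g _ => hfib g, Finset.sum_const, Finset.card_univ, smul_eq_mul,
    Nat.card_eq_fintype_card]

end

/-- **RG-L25** -/
theorem rg_L25 : L25 := by
  intro F K _ _ _ _ _ d hd hK P
  have h1 := card_pairs hK hd P
  rw [card_GL hd hK, mul_assoc (Nat.card (K →ₐ[F] Matrix (Fin d) (Fin d) F)), mul_comm (Nat.card F ^ d - 1), ← mul_assoc,
    h1, mul_comm d]

/-- **RG-L02** -/
theorem rg_L02 : L02 := by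
  intro F _ _ d hd
  obtain ⟨K, _, _, _, hrk⟩ : ∃ (K : Type) (_ : Field K) (_ : Finite K) (_ : Algebra F K), finrank F K = d := by
    obtain ⟨p, hp⟩ := CharP.exists F
    have hpr : Fact p.Prime := ⟨CharP.char_is_prime F p⟩
    have hd0 : NeZero d := ⟨by omega⟩
    exact ⟨FiniteField.Extension F p d, inferInstance, inferInstance, inferInstance,
      FiniteField.finrank_extension F p d⟩
  have h1 := rg_L25 F K d hd hrk (fun _ => True)
  simp only [and_true] at h1
  have hq : 1 < Nat.card F := Finite.one_lt_card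
  have hpos : 0 < Nat.card F ^ d - 1 := by
    have := Nat.one_lt_pow (n := d) (by omega) hq
    omega
  have h2 : Nat.card {u : Kˣ // Algebra.adjoin F {(u : K)} = ⊤} ≤ Nat.card F ^ d - 1 := by
    have h3 : Nat.card {u : Kˣ // Algebra.adjoin F {(u : K)} = ⊤} ≤ Nat.card Kˣ :=
      Nat.card_le_card_of_injective _ Subtype.val_injective
    rw [Nat.card_units, Module.natCard_eq_pow_finrank (K := F) (V := K), hrk] at h3
    exact h3
  apply Nat.le_of_mul_le_mul_right _ hpos
  rw [h1]
  exact Nat.mul_le_mul_left _ h2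

end Cfsg.Agent.H383.RG
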